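import Cfsg.Agent.Depth.P.Id_m3
import Cfsg.Agent.Prune
set_option linter.all false
prune_inst 0x7f00000000000000000000000000000000000000000000000000000000000000000000000000000000000000000000000000000000000000000000000000000000000000000000000000000000000000003fffffffffffffffffffffffffffbeffbdffffffff
open scoped Cfsg.Agent.FastGrp

/-!
# Ladders of primes `k 2^m + 1` near the points of a grid, tested in batches

A prime is `p = g - u s` with `g` on a grid of width `w` and `s < 64`.  Modulo the product of the primes of a batch,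
`H = 3 ^ (u / 2)`, `G = 3 ^ (w / 2)` and `Y = 3 ^ ((g - 1) / 2)` are computed once; the test of Pocklington
`3 ^ ((p - 1) / 2) = -1` is `Y + H ^ s = 0` modulo `p`.
-/

set_option autoImplicit false

namespace Cfsg.Agent.Depth.F.Gr

/-- modulus, the powers `H`, `G₁ .. G₆`, `Y` of `3`; the value is `0` if all tests hold -/
abbrev KT : Type := ℕ → ℕ → ℕ → ℕ → ℕ → ℕ → ℕ → ℕ → ℕ → ℕ

/-- the tests of six primes -/
noncomputable def grp (K : KT) (p0 p1 p2 p3 p4 p5 s0 s1 s2 s3 s4 s5 : ℕ) : KT := fun M H G1 G2 G3 G4 G5 G6 Y =>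
  (Nat.add (Nat.mod (Nat.add (Nat.mul Y G1) (Nat.pow (Nat.mod H p5) s5)) p5)
          (Nat.add (Nat.mod (Nat.add (Nat.mul Y G2) (Nat.pow (Nat.mod H p4) s4)) p4)
          (Nat.add (Nat.mod (Nat.add (Nat.mul Y G3) (Nat.pow (Nat.mod H p3) s3)) p3)
          (Nat.add (Nat.mod (Nat.add (Nat.mul Y G4) (Nat.pow (Nat.mod H p2) s2)) p2)
          (Nat.add (Nat.mod (Nat.add (Nat.mul Y G5) (Nat.pow (Nat.mod H p1) s1)) p1)
          (Nat.add (Nat.mod (Nat.add (Nat.mul Y G6) (Nat.pow (Nat.mod H p0) s0)) p0)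
          (K M H G1 G2 G3 G4 G5 G6 (Nat.mod (Nat.mul Y G6) M))))))))

/-- `6 n` primes -/
noncomputable def bat (u w1 w2 w3 w4 w5 w6 : ℕ) (fin : ℕ → ℕ → ℕ → KT → ℕ) (n : ℕ) : ℕ → ℕ → ℕ → KT → ℕ :=
  Nat.rec (motive := fun _ => ℕ → ℕ → ℕ → KT → ℕ) fin
    (fun _ ih Z g N K => ih (Nat.shiftRight Z 36) (Nat.sub g w6)
      (Nat.mul (Nat.mul (Nat.mul (Nat.mul (Nat.mul (Nat.mul N
        (Nat.sub g (Nat.mul u (Nat.land Z 63))))
        (Nat.sub (Nat.sub g w1) (Nat.mul u (Nat.land (Nat.shiftRight Z 6) 63))))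
        (Nat.sub (Nat.sub g w2) (Nat.mul u (Nat.land (Nat.shiftRight Z 12) 63))))
        (Nat.sub (Nat.sub g w3) (Nat.mul u (Nat.land (Nat.shiftRight Z 18) 63))))
        (Nat.sub (Nat.sub g w4) (Nat.mul u (Nat.land (Nat.shiftRight Z 24) 63))))
        (Nat.sub (Nat.sub g w5) (Nat.mul u (Nat.land (Nat.shiftRight Z 30) 63))))
      (grp K (Nat.sub g (Nat.mul u (Nat.land Z 63)))
        (Nat.sub (Nat.sub g w1) (Nat.mul u (Nat.land (Nat.shiftRight Z 6) 63)))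
        (Nat.sub (Nat.sub g w2) (Nat.mul u (Nat.land (Nat.shiftRight Z 12) 63)))
        (Nat.sub (Nat.sub g w3) (Nat.mul u (Nat.land (Nat.shiftRight Z 18) 63)))
        (Nat.sub (Nat.sub g w4) (Nat.mul u (Nat.land (Nat.shiftRight Z 24) 63)))
        (Nat.sub (Nat.sub g w5) (Nat.mul u (Nat.land (Nat.shiftRight Z 30) 63)))
        (Nat.land Z 63) (Nat.land (Nat.shiftRight Z 6) 63) (Nat.land (Nat.shiftRight Z 12) 63) (Nat.land (Nat.shiftRight Z 18) 63) (Nat.land (Nat.shiftRight Z 24) 63) (Nat.land (Nat.shiftRight Z 30) 63))) n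

/-- the test of a batch -/
noncomputable def tst (F v g b : ℕ) : Bool :=
  Nat.ble (Nat.mul (Nat.add (Nat.mul (Nat.div g (Nat.mul F F)) (Nat.succ F)) 2) F) (Nat.add b v)

/-- all tests of a batch -/
noncomputable def fin (hp : ℕ → ℕ) (gp yp : ℕ → ℕ → ℕ) (b N : ℕ) (K : KT) : ℕ :=
  (fun H => (fun G1 => (fun G2 => (fun G3 =>
    K N H G1 G2 G3 (Nat.mod (Nat.mul G2 G2) N) (Nat.mod (Nat.mul G2 G3) N) (Nat.mod (Nat.mul G3 G3) N) (yp N b))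
    (Nat.mod (Nat.mul G1 G2) N)) (Nat.mod (Nat.mul G1 G1) N)) (gp N H)) (hp N)

/-- `c` batches, each of `B` bits; returns the next point of the grid, or `0` -/
noncomputable def run (F u v w1 w2 w3 w4 w5 w6 W B n : ℕ) (hp : ℕ → ℕ) (gp yp : ℕ → ℕ → ℕ) (c : ℕ) : ℕ → ℕ → ℕ :=
  Nat.rec (motive := fun _ => ℕ → ℕ → ℕ) (fun _ g => g)
    (fun _ ih D g => cond (Nat.ble W g) (bat u w1 w2 w3 w4 w5 w6 (fun Z b N K =>
      Nat.rec (motive := fun _ => ℕ) (cond (tst F v g b) (ih (Nat.shiftRight D B) (Nat.add b (Nat.mul u Z))) 0)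
        (fun _ _ => 0) (fin hp gp yp b N K)) n
      (Nat.land D (Nat.pred (Nat.shiftLeft 1 B))) g 1 (fun _ _ _ _ _ _ _ _ _ => 0)) 0) c

theorem ord {m q : ℕ} (hq : q.Prime) (hq2 : q ≠ 2) {X : ZMod q} (h3 : X ^ 2 ^ m = -1) :
    ∃ a, q = a * 2 ^ (m + 1) + 1 := by
  have := Fact.mk hq
  have h4 : (-1 : ZMod q) ≠ 1 := by
    have : Fact (2 < q) := ⟨lt_of_le_of_ne hq.two_le (Ne.symm hq2)⟩
    exact ZMod.neg_one_ne_one
  have h5 : X ^ 2 ^ (m + 1) = 1 := by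
    rw [pow_succ, pow_mul, h3, neg_one_sq]
  have h6 : orderOf X = 2 ^ (m + 1) := orderOf_eq_prime_pow (by rw [h3]; exact h4) h5
  have h7 : X ≠ 0 := by
    intro h0
    rw [h0, zero_pow (Nat.pos_iff_ne_zero.1 (Nat.two_pow_pos _))] at h5
    exact zero_ne_one h5
  obtain ⟨a, ha⟩ := ZMod.orderOf_dvd_card_sub_one h7
  rw [h6] at ha
  have := hq.two_le
  exact ⟨a, by rw [Nat.mul_comm a]; omega⟩

theorem prime_of {F c y : ℕ} (hF : 2 ≤ F) (hF2 : 2 ∣ F) (hN : ∀ q, q.Prime → q ≠ 2 → q ∣ y → ∃ a, q = a * F + 1)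
    (h0 : y % F = 1) (h1 : (c * (F + 1) + 2) * F ≤ y) (h2 : y < (c + 1) * (F * F)) : y.Prime := by
  obtain ⟨k, rfl⟩ : ∃ k, y = k * F + 1 := ⟨y / F, by rw [← h0, Nat.div_add_mod']⟩
  have h3 : c * (F + 1) + 2 ≤ k := by
    by_contra h4
    have := Nat.mul_le_mul_right F (show k + 1 ≤ c * (F + 1) + 2 by omega)
    rw [Nat.add_mul k 1 F] at this
    omega
  have h4 : k < (c + 1) * F := by
    by_contra h5
    have := Nat.mul_le_mul_right F (not_lt.mp h5)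
    rw [Nat.mul_assoc] at this
    omega
  by_contra hn
  obtain ⟨a, b, ha, hb, hab⟩ := split (by omega : 1 ≤ k) (by omega : 1 ≤ F) (fun q hq hqd => hN q hq (by
    rintro rfl
    have := (Nat.dvd_add_right (hF2.mul_left k)).1 hqd
    omega) hqd) hn
  have h7 : a + b ≤ a * b + 1 := by
    obtain ⟨a, rfl⟩ : ∃ t, a = t + 1 := ⟨a - 1, by omega⟩
    obtain ⟨b, rfl⟩ : ∃ t, b = t + 1 := ⟨b - 1, by omega⟩
    rw [Nat.add_mul, Nat.mul_add]
    omega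
  generalize a * b = u at hab h7
  rcases Nat.lt_or_ge c u with h8 | h8
  · have := Nat.mul_le_mul_right F (show c + 1 ≤ u from h8)
    omega
  · have := Nat.mul_le_mul_right F h8
    rw [Nat.mul_add] at h3
    omega

/-- `Y = 3 ^ (b / 2)` modulo `M` -/
def Pw (M Y b : ℕ) : Prop := Y ≡ 3 ^ (b / 2) [MOD M]

theorem Pw.mul {M Y G b w : ℕ} (h1 : Pw M Y b) (h2 : Pw M G (2 * w)) : Pw M (Nat.mul Y G) (b + 2 * w) := by
  unfold Pw at *
  rw [Nat.mul_div_cancel_left _ two_pos] at h2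
  rw [Nat.add_mul_div_left _ _ two_pos, pow_add]
  exact h1.mul h2

theorem Pw.mod {M Y b : ℕ} (h : Pw M Y b) : Pw M (Nat.mod Y M) b := (Nat.mod_modEq _ _).trans h

/-- the constants -/
structure Par (e t m μ ω v ρ : ℕ) : Prop where
  h1 : 15 * 2 ^ m = μ
  h2 : μ ∣ ω
  h3 : ρ % 10 = e
  h4 : ρ % 3 = 2
  h5 : ρ % 2 ^ (m + 1) = 1
  h6 : v + 63 * (2 * μ) = 2 * ω
  h7 : 2 * ω + 63 * (2 * μ) ≤ t

/-- numbers between `lo` and `hi` whose prime factors are `1 mod F` are primes -/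
def Pt (m lo hi : ℕ) : Prop :=
  ∀ y, lo ≤ y → y ≤ hi → y % 2 ^ (m + 1) = 1 → (∀ q, q.Prime → q ≠ 2 → q ∣ y → ∃ a, q = a * 2 ^ (m + 1) + 1) → y.Prime

theorem one {e t m μ ω v ρ : ℕ} (P : Par e t m μ ω v ρ) {M H Y b g lo hi : ℕ} (Z : ℕ) (hg : g = b + 2 * ω)
    (hb : b % (2 * μ) = ρ) (hH : Pw M H (2 * μ)) (hY : Pw M Y g)
    (hd : Nat.sub g (Nat.mul (2 * μ) (Nat.land Z 63)) ∣ M)
    (h0 : Nat.mod (Nat.add Y (Nat.pow (Nat.mod H (Nat.sub g (Nat.mul (2 * μ) (Nat.land Z 63)))) (Nat.land Z 63)))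
      (Nat.sub g (Nat.mul (2 * μ) (Nat.land Z 63))) = 0)
    (hp : Pt m lo hi) (h1 : lo ≤ b + v) (h2 : g ≤ hi) : Lad e t (b + 2 * ω + 1) (g + 2 * ω + 1) := by
  have hs : Nat.land Z 63 ≤ 63 := Nat.and_le_right
  generalize Nat.land Z 63 = s at hs hd h0
  have a1 : 2 * μ * s ≤ 63 * (2 * μ) := by rw [Nat.mul_comm 63]; exact Nat.mul_le_mul_left _ hs
  have a2 := P.h6
  have a3 := P.h7
  obtain ⟨p, a4⟩ : ∃ p, g = p + 2 * μ * s := ⟨g - 2 * μ * s, by omega⟩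
  have a5 : Nat.sub g (Nat.mul (2 * μ) s) = p := by
    change g - 2 * μ * s = p
    omega
  rw [a5] at hd h0
  have a6 : p % (2 * μ) = ρ := by
    obtain ⟨E, hE⟩ := P.h2
    rw [← Nat.add_mul_mod_self_left p (2 * μ) s, ← a4, hg, hE, ← Nat.mul_assoc, Nat.add_mul_mod_self_left, hb]
  have a7 : 2 * μ = 30 * 2 ^ m := by rw [← P.h1]; omega
  have a8 : p % 10 = e := by rw [← P.h3, ← a6, Nat.mod_mod_of_dvd _ ⟨3 * 2 ^ m, by omega⟩]
  have a9 : p % 3 = 2 := by rw [← P.h4, ← a6, Nat.mod_mod_of_dvd _ ⟨10 * 2 ^ m, by omega⟩]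
  have a10 : p % 2 ^ (m + 1) = 1 := by
    refine Eq.trans ?_ P.h5
    rw [← a6, Nat.mod_mod_of_dvd _ ⟨15, by rw [pow_succ]; omega⟩]
  have a11 : p.Prime := hp p (by omega) (by omega) a10 fun q hq hq2 hqd => by
    have := Fact.mk hq
    obtain ⟨k, hk⟩ : ∃ k, p = k * 2 ^ (m + 1) + 1 := 
      ⟨p / 2 ^ (m + 1), (Nat.div_add_mod' p _).symm.trans (congrArg _ a10)⟩
    have b1 : g / 2 = k * 2 ^ m + μ * s := by
      rw [a4, hk, pow_succ, ← Nat.mul_assoc, Nat.mul_assoc 2 μ s]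
      omega
    have b2 : ((Y : ℕ) : ZMod q) = (3 ^ k) ^ 2 ^ m * (3 ^ μ) ^ s := by
      have := (ZMod.natCast_eq_natCast_iff _ _ _).mpr (Nat.ModEq.of_dvd (hqd.trans hd) hY)
      rwa [b1, Nat.cast_pow, pow_add, pow_mul, pow_mul, Nat.cast_ofNat] at this
    have b3 : ((H % p : ℕ) : ZMod q) = 3 ^ μ := by
      have := (ZMod.natCast_eq_natCast_iff _ _ _).mpr
        (((Nat.mod_modEq H p).of_dvd hqd).trans (Nat.ModEq.of_dvd (hqd.trans hd) hH))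
      rwa [Nat.mul_div_cancel_left _ two_pos, Nat.cast_pow, Nat.cast_ofNat] at this
    have b4 : ((Y + (H % p) ^ s : ℕ) : ZMod q) = 0 :=
      (ZMod.natCast_eq_zero_iff _ _).mpr (hqd.trans (Nat.dvd_of_mod_eq_zero h0))
    rw [Nat.cast_add, Nat.cast_pow, b2, b3, ← add_one_mul] at b4
    have b5 : (3 : ZMod q) ≠ 0 := by
      intro h
      have b6 : q ∣ 3 := (ZMod.natCast_eq_zero_iff 3 q).mp (by rw [Nat.cast_ofNat]; exact h)
      have b7 := (Nat.prime_dvd_prime_iff_eq hq Nat.prime_three).mp b6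
      subst b7
      omega
    exact ord hq hq2 (eq_neg_of_add_eq_zero_left
      ((mul_eq_zero.mp b4).resolve_right (pow_ne_zero _ (pow_ne_zero _ b5))))
  intro x h7 h8
  exact ⟨p, a11, a8, by omega, by omega⟩

theorem two {e t m μ ω v ρ : ℕ} (P : Par e t m μ ω v ρ) {M H Y G c g lo hi : ℕ} (j i k Z : ℕ) (hi1 : i = j + 1)
    (hk : k = j + 2) (hg : g = c + 2 * (i * ω)) (hc : c % (2 * μ) = ρ) (hH : Pw M H (2 * μ)) (hY : Pw M Y c)
    (hG : Pw M G (2 * (i * ω))) (hd : Nat.sub g (Nat.mul (2 * μ) (Nat.land Z 63)) ∣ M)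
    (h0 : Nat.mod (Nat.add (Nat.mul Y G)
      (Nat.pow (Nat.mod H (Nat.sub g (Nat.mul (2 * μ) (Nat.land Z 63)))) (Nat.land Z 63)))
      (Nat.sub g (Nat.mul (2 * μ) (Nat.land Z 63))) = 0)
    (hp : Pt m lo hi) (h1 : lo ≤ c + v) (h2 : g ≤ hi) :
    Lad e t (c + 2 * (i * ω) + 1) (c + 2 * (k * ω) + 1) := by
  subst hi1 hk
  have a1 : c + 2 * ((j + 1) * ω) = c + 2 * (j * ω) + 2 * ω := by rw [Nat.add_mul]; omega
  have a2 : c + 2 * ((j + 2) * ω) = g + 2 * ω := by rw [hg, Nat.add_mul, Nat.add_mul]; omega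
  rw [a2, a1]
  refine one P Z (hg.trans a1) ?_ hH (hg ▸ hY.mul hG) hd h0 hp (by omega) h2
  obtain ⟨E, hE⟩ := P.h2
  rw [hE, Nat.mul_left_comm j, ← Nat.mul_assoc, Nat.add_mul_mod_self_left, hc]

/-- the powers of `3` used in a batch -/
structure Gd (μ ω M H G1 G2 G3 G4 G5 G6 : ℕ) : Prop where
  h : Pw M H (2 * μ)
  g1 : Pw M G1 (2 * (1 * ω))
  g2 : Pw M G2 (2 * (2 * ω))
  g3 : Pw M G3 (2 * (3 * ω))
  g4 : Pw M G4 (2 * (4 * ω))
  g5 : Pw M G5 (2 * (5 * ω))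
  g6 : Pw M G6 (2 * (6 * ω))

theorem bat_spec {e t m μ ω v ρ : ℕ} (P : Par e t m μ ω v ρ) (f : ℕ → ℕ → ℕ → KT → ℕ) (b : ℕ)
    (hb : b % (2 * μ) = ρ) (n : ℕ) : ∀ (Z g N : ℕ) (K : KT), g = b + 2 * (n * (6 * ω)) → ∃ Z' N' K',
      bat (2 * μ) (2 * (1 * ω)) (2 * (2 * ω)) (2 * (3 * ω)) (2 * (4 * ω)) (2 * (5 * ω)) (2 * (6 * ω)) f n Z g N K =
        f Z' b N' K' ∧ N ∣ N' ∧ ∀ M H G1 G2 G3 G4 G5 G6 Y lo hi, N' ∣ M → Gd μ ω M H G1 G2 G3 G4 G5 G6 →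
          Pw M Y b → K' M H G1 G2 G3 G4 G5 G6 Y = 0 → Pt m lo hi → lo ≤ b + v → g ≤ hi →
          (∃ Y', Pw M Y' g ∧ K M H G1 G2 G3 G4 G5 G6 Y' = 0) ∧ Lad e t (b + 2 * ω + 1) (g + 2 * ω + 1) := by
  induction n with
  | zero =>
    intro Z g N K hg
    obtain rfl : g = b := by omega
    exact ⟨Z, N, K, rfl, dvd_rfl, fun M H G1 G2 G3 G4 G5 G6 Y lo hi _ _ h1 h2 _ _ _ =>
      ⟨⟨Y, h1, h2⟩, fun x h7 h8 => absurd h8 (not_lt.2 h7)⟩⟩
  | succ n ih =>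
    intro Z g N K hg
    obtain ⟨c, hc⟩ : ∃ c, c = b + 2 * (n * (6 * ω)) := ⟨_, rfl⟩
    have e0 : g = c + 2 * (6 * ω) := by rw [hg, hc, Nat.add_mul]; omega
    have e1 : Nat.sub g (2 * (1 * ω)) = c + 2 * (5 * ω) := by change g - _ = _; omega
    have e2 : Nat.sub g (2 * (2 * ω)) = c + 2 * (4 * ω) := by change g - _ = _; omega
    have e3 : Nat.sub g (2 * (3 * ω)) = c + 2 * (3 * ω) := by change g - _ = _; omega
    have e4 : Nat.sub g (2 * (4 * ω)) = c + 2 * (2 * ω) := by change g - _ = _; omega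
    have e5 : Nat.sub g (2 * (5 * ω)) = c + 2 * (1 * ω) := by change g - _ = _; omega
    have e6 : Nat.sub g (2 * (6 * ω)) = c := by change g - _ = _; omega
    have e7 : c % (2 * μ) = ρ := by
      obtain ⟨E, hE⟩ := P.h2
      rw [hc, hE, Nat.mul_left_comm 6, Nat.mul_left_comm n, ← Nat.mul_assoc, Nat.add_mul_mod_self_left, hb]
    obtain ⟨Z', N', K', a1, a2, a3⟩ := ih (Nat.shiftRight Z 36) (Nat.sub g (2 * (6 * ω))) _ _ (e6.trans hc)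
    refine ⟨Z', N', K', a1, ?_, fun M H G1 G2 G3 G4 G5 G6 Y lo hi h1 h2 h3 h4 h5 h6 h7 => ?_⟩
    · exact ((((((Dvd.intro _ rfl).mul_right _).mul_right _).mul_right _).mul_right _).mul_right _).trans a2
    · obtain ⟨⟨Y', b1, b2⟩, b3⟩ := a3 M H G1 G2 G3 G4 G5 G6 Y lo hi h1 h2 h3 h4 h5 h6
        ((Nat.sub_le _ _).trans h7)
      rw [e6] at b1 b3
      have d := a2.trans h1
      have d5 := dvd_of_mul_right_dvd d
      have d4 := dvd_of_mul_right_dvd d5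
      have d3 := dvd_of_mul_right_dvd d4
      have d2 := dvd_of_mul_right_dvd d3
      have d1 := dvd_of_mul_right_dvd d2
      obtain ⟨r5, b2⟩ := Nat.add_eq_zero_iff.mp b2
      obtain ⟨r4, b2⟩ := Nat.add_eq_zero_iff.mp b2
      obtain ⟨r3, b2⟩ := Nat.add_eq_zero_iff.mp b2
      obtain ⟨r2, b2⟩ := Nat.add_eq_zero_iff.mp b2
      obtain ⟨r1, b2⟩ := Nat.add_eq_zero_iff.mp b2
      obtain ⟨r0, b2⟩ := Nat.add_eq_zero_iff.mp b2
      have h8 : lo ≤ c + v := by omega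
      have l5 := two P 0 1 2 _ rfl rfl e5 e7 h2.h b1 h2.g1 (dvd_of_mul_left_dvd d) r5 h5 h8
        ((Nat.sub_le _ _).trans h7)
      have l4 := two P 1 2 3 _ rfl rfl e4 e7 h2.h b1 h2.g2 (dvd_of_mul_left_dvd d5) r4 h5 h8
        ((Nat.sub_le _ _).trans h7)
      have l3 := two P 2 3 4 _ rfl rfl e3 e7 h2.h b1 h2.g3 (dvd_of_mul_left_dvd d4) r3 h5 h8
        ((Nat.sub_le _ _).trans h7)
      have l2 := two P 3 4 5 _ rfl rfl e2 e7 h2.h b1 h2.g4 (dvd_of_mul_left_dvd d3) r2 h5 h8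
        ((Nat.sub_le _ _).trans h7)
      have l1 := two P 4 5 6 _ rfl rfl e1 e7 h2.h b1 h2.g5 (dvd_of_mul_left_dvd d2) r1 h5 h8
        ((Nat.sub_le _ _).trans h7)
      have l0 := two P 5 6 7 _ rfl rfl e0 e7 h2.h b1 h2.g6 (dvd_of_mul_left_dvd d1) r0 h5 h8 h7
      refine ⟨⟨_, e0 ▸ (b1.mul h2.g6).mod, b2⟩, ?_⟩
      have l := (((((l5.app l4).app l3).app l2).app l1).app l0)
      rw [Nat.one_mul] at l
      have e8 : g + 2 * ω + 1 = c + 2 * (7 * ω) + 1 := by omega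
      rw [e8]
      exact b3.app l

theorem Pw.mul' {M Y G a b c : ℕ} (h1 : Pw M Y (2 * a)) (h2 : Pw M G (2 * b)) (h : c = 2 * a + 2 * b) :
    Pw M (Nat.mod (Nat.mul Y G) M) c := h ▸ (h1.mul h2).mod

theorem run_spec {e t m μ ω v ρ E B n : ℕ} (P : Par e t m μ ω v ρ) {hp : ℕ → ℕ} {gp yp : ℕ → ℕ → ℕ}
    (hE : ω = μ * E) (hh : ∀ N, hp N ≡ 3 ^ μ [MOD N]) (hgp : ∀ N H, gp N H ≡ H ^ E [MOD N])
    (hy : ∀ N b, yp N b ≡ (3 ^ (b >>> (m + 1))) ^ 2 ^ m [MOD N]) (c : ℕ) : ∀ D g g', g % (2 * μ) = ρ →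
      run (2 ^ (m + 1)) (2 * μ) v (2 * (1 * ω)) (2 * (2 * ω)) (2 * (3 * ω)) (2 * (4 * ω)) (2 * (5 * ω))
        (2 * (6 * ω)) (2 * (n * (6 * ω))) B n hp gp yp c D g = g' → g' ≠ 0 →
      g' % (2 * μ) = ρ ∧ Lad e t (g' + 2 * ω + 1) (g + 2 * ω + 1) := by
  have hF2 : 2 ∣ 2 ^ (m + 1) := Dvd.intro_left _ (pow_succ 2 m).symm
  have hF0 : 0 < 2 ^ (m + 1) := Nat.two_pow_pos _
  induction c with
  | zero =>
    intro D g g' h5 h _
    obtain rfl : g = g' := h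
    exact ⟨h5, fun x h7 h8 => absurd h8 (not_lt.2 h7)⟩
  | succ c ih =>
    intro D g g' h5 h h0
    change cond _ _ _ = _ at h
    cases hV : Nat.ble (2 * (n * (6 * ω))) g with
    | false => rw [hV, cond_false] at h; exact absurd h.symm h0
    | true =>
      rw [hV, cond_true] at h
      have hW := Nat.le_of_ble_eq_true hV
      obtain ⟨b, hb⟩ : ∃ b, g = b + 2 * (n * (6 * ω)) := ⟨g - 2 * (n * (6 * ω)), by omega⟩
      have a0 : b % (2 * μ) = ρ := by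
        rw [← h5, hb, hE, Nat.mul_left_comm 6, Nat.mul_left_comm n, ← Nat.mul_assoc, Nat.add_mul_mod_self_left]
      obtain ⟨Z, N, K, a1, -, a3⟩ := bat_spec P _ b a0 n (Nat.land D (Nat.pred (Nat.shiftLeft 1 B))) g 1
        (fun _ _ _ _ _ _ _ _ _ => 0) hb
      have h7 := a1.symm.trans h
      beta_reduce at h7
      cases hf : fin hp gp yp b N K with
      | succ k => rw [hf] at h7; exact absurd h7.symm h0
      | zero =>
        rw [hf] at h7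
        change cond _ _ _ = _ at h7
        cases hc : tst (2 ^ (m + 1)) v g b with
        | false => rw [hc, cond_false] at h7; exact absurd h7.symm h0
        | true =>
          rw [hc, cond_true] at h7
          have b1 : (g / (2 ^ (m + 1) * 2 ^ (m + 1)) * (2 ^ (m + 1) + 1) + 2) * 2 ^ (m + 1) ≤ b + v :=
            Nat.le_of_ble_eq_true hc
          have b3 : g < (g / (2 ^ (m + 1) * 2 ^ (m + 1)) + 1) * (2 ^ (m + 1) * 2 ^ (m + 1)) := by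
            rw [Nat.mul_comm]
            exact Nat.lt_mul_div_succ g (Nat.mul_pos hF0 hF0)
          have b4 : Pt m (b + v) g := fun y c1 c2 c3 c4 =>
            prime_of (Nat.le_of_dvd hF0 hF2) hF2 c4 c3 (b1.trans c1) (lt_of_le_of_lt c2 b3)
          have pH : Pw N (hp N) (2 * μ) := by
            unfold Pw
            rw [Nat.mul_div_cancel_left _ two_pos]
            exact hh N
          have p1 : Pw N (gp N (hp N)) (2 * (1 * ω)) := by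
            unfold Pw
            rw [Nat.mul_div_cancel_left _ two_pos, Nat.one_mul, hE, pow_mul]
            exact (hgp N _).trans ((hh N).pow E)
          have p2 := p1.mul' p1 (show 2 * (2 * ω) = _ by omega)
          have p3 := p1.mul' p2 (show 2 * (3 * ω) = _ by omega)
          have pY : Pw N (yp N b) b := by
            unfold Pw
            have c1 : b % 2 ^ (m + 1) = 1 := by
              refine Eq.trans ?_ P.h5
              rw [← a0, Nat.mod_mod_of_dvd _ ⟨15, by rw [pow_succ, ← P.h1]; omega⟩]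
            have c2 := Nat.div_add_mod' b (2 ^ (m + 1))
            have c3 : b / 2 = b >>> (m + 1) * 2 ^ m := by
              rw [Nat.shiftRight_eq_div_pow]
              rw [c1] at c2
              generalize b / 2 ^ (m + 1) = k at c2
              rw [pow_succ, ← Nat.mul_assoc] at c2
              omega
            rw [c3, pow_mul]
            exact hy N b
          have l1 := (a3 N _ _ _ _ _ _ _ _ _ _ dvd_rfl ⟨pH, p1, p2, p3, p2.mul' p2 (by omega), p2.mul' p3 (by omega),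
            p3.mul' p3 (by omega)⟩ pY hf b4 le_rfl le_rfl).2
          have l2 := ih _ _ _ (by
            change (b + 2 * μ * Z) % (2 * μ) = ρ
            rw [Nat.add_mul_mod_self_left, a0]) h7 h0
          refine ⟨l2.1, l2.2.app fun x c1 c2 => l1 x (le_trans ?_ c1) c2⟩
          change b + 2 * ω + 1 ≤ b + 2 * μ * Z + 2 * ω + 1
          omega

theorem top (e N : ℕ) : Nat.mod (Nat.pow 3 e) N ≡ 3 ^ e [MOD N] := Nat.mod_modEq _ _

theorem hfin {N x a j : ℕ} (c : ℕ) (h : x ≡ (3 ^ a) ^ 2 ^ j [MOD N]) (hc : a * 2 ^ j = c) : x ≡ 3 ^ c [MOD N] := by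
  rwa [← pow_mul, hc] at h

theorem gst {N x H a : ℕ} (A : ℕ) (h : x ≡ H ^ a [MOD N]) : Nat.mod (Nat.pow x A) N ≡ H ^ (a * A) [MOD N] := by
  rw [pow_mul]
  exact pw_step A h

theorem gfin {N x H a : ℕ} (c : ℕ) (h : x ≡ H ^ a [MOD N]) (hc : a = c) : x ≡ H ^ c [MOD N] := hc ▸ h

theorem s0 {N x X : ℕ} (h : x ≡ X [MOD N]) : x ≡ X ^ 2 ^ 0 [MOD N] := by rwa [pow_zero, pow_one]

theorem sq {N x X j : ℕ} (h : x ≡ X ^ 2 ^ j [MOD N]) : Nat.mod (Nat.pow x 2) N ≡ X ^ 2 ^ (j + 1) [MOD N] := by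
  rw [pow_succ, pow_mul]
  exact pw_step 2 h

theorem win {N x b : ℕ} (s j : ℕ) (h : x ≡ (3 ^ (b >>> (s + (j + 1)))) ^ 2 ^ j [MOD N]) :
    Nat.mod (Nat.mul (Nat.pow x 2) (Nat.pow 3 (Nat.land (Nat.shiftRight b s) (2 ^ (j + 1) - 1)))) N ≡
      3 ^ (b >>> s) [MOD N] := by
  refine (Nat.mod_modEq _ _).trans ?_
  have h1 : Nat.land (Nat.shiftRight b s) (2 ^ (j + 1) - 1) = (b >>> s) % 2 ^ (j + 1) :=
    Nat.and_two_pow_sub_one_eq_mod _ _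
  have h2 : b >>> (s + (j + 1)) = (b >>> s) / 2 ^ (j + 1) := by
    rw [Nat.shiftRight_add, Nat.shiftRight_eq_div_pow]
  have h3 : 3 ^ (b >>> s) = ((3 ^ (b >>> (s + (j + 1)))) ^ 2 ^ j) ^ 2 * 3 ^ ((b >>> s) % 2 ^ (j + 1)) := by
    rw [h2, ← pow_mul, ← pow_mul, ← pow_succ, ← pow_add, Nat.div_add_mod']
  rw [h3, h1]
  exact (h.pow 2).mul_right _

/-- from the point `g` of the grid down to the point `g'` -/
def Seg (t m μ ω v g g' : ℕ) : Prop := ∀ e, Par e t m μ ω v (g % (2 * μ)) →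
  g' % (2 * μ) = g % (2 * μ) ∧ Lad e t (g' + 2 * ω + 1) (g + 2 * ω + 1)

theorem Seg.app {t m μ ω v a b c : ℕ} (h1 : Seg t m μ ω v a b) (h2 : Seg t m μ ω v b c) : Seg t m μ ω v a c :=
  fun e P => ⟨(h2 e ((h1 e P).1 ▸ P)).1.trans (h1 e P).1, (h2 e ((h1 e P).1 ▸ P)).2.app (h1 e P).2⟩

noncomputable def hB (N : ℕ) : ℕ :=
  (Nat.mod (Nat.pow (Nat.mod (Nat.pow (Nat.mod (Nat.pow (Nat.mod (Nat.pow (Nat.mod (Nat.pow (Nat.mod (Nat.pow (Nat.mod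
  (Nat.pow (Nat.mod (Nat.pow (Nat.mod (Nat.pow (Nat.mod (Nat.pow (Nat.mod (Nat.pow (Nat.mod (Nat.pow (Nat.mod (Nat.pow
  3 7680) N) 2) N) 2) N) 2) N) 2) N) 2) N) 2) N) 2) N) 2) N) 2) N) 2) N) 2) N) 2) N)

noncomputable def gB (N H : ℕ) : ℕ :=
  (Nat.mod (Nat.pow (Nat.mod (Nat.pow (Nat.mod (Nat.pow (Nat.mod (Nat.pow (Nat.mod (Nat.pow (Nat.mod (Nat.pow (Nat.mod
  (Nat.pow (Nat.mod (Nat.pow (Nat.mod (Nat.pow H 2) N) 2) N) 2) N) 2) N) 3) N) 3) N) 3) N) 3) N) 3) N)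

noncomputable def yB (N b : ℕ) : ℕ :=
  (Nat.mod (Nat.pow (Nat.mod (Nat.pow (Nat.mod (Nat.pow (Nat.mod (Nat.pow (Nat.mod (Nat.pow (Nat.mod (Nat.pow (Nat.mod
  (Nat.pow (Nat.mod (Nat.pow (Nat.mod (Nat.pow (Nat.mod (Nat.pow (Nat.mod (Nat.pow (Nat.mod (Nat.pow (Nat.mod (Nat.pow
  (Nat.mod (Nat.pow (Nat.mod (Nat.pow (Nat.mod (Nat.pow (Nat.mod (Nat.pow (Nat.mod (Nat.pow (Nat.mod (Nat.pow (Nat.mod
  (Nat.pow (Nat.mod (Nat.pow (Nat.mod (Nat.mul (Nat.pow (Nat.mod (Nat.pow (Nat.mod (Nat.pow (Nat.mod (Nat.pow (Nat.mod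
  (Nat.pow (Nat.mod (Nat.pow (Nat.mod (Nat.pow (Nat.mod (Nat.pow (Nat.mod (Nat.mul (Nat.pow (Nat.mod (Nat.pow (Nat.mod
  (Nat.pow (Nat.mod (Nat.pow (Nat.mod (Nat.pow (Nat.mod (Nat.pow (Nat.mod (Nat.pow (Nat.mod (Nat.pow (Nat.mod (Nat.mul
  (Nat.pow (Nat.mod (Nat.pow (Nat.mod (Nat.pow (Nat.mod (Nat.pow (Nat.mod (Nat.pow (Nat.mod (Nat.pow (Nat.mod (Nat.pow
  (Nat.mod (Nat.pow (Nat.mod (Nat.pow 3 (Nat.shiftRight b 46)) N) 2) N) 2) N) 2) N) 2) N) 2) N) 2) N) 2) N) 2)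
  (Nat.pow 3 (Nat.land (Nat.shiftRight b 38) 255))) N) 2) N) 2) N) 2) N) 2) N) 2) N) 2) N) 2) N) 2) (Nat.pow 3
  (Nat.land (Nat.shiftRight b 30) 255))) N) 2) N) 2) N) 2) N) 2) N) 2) N) 2) N) 2) N) 2) (Nat.pow 3 (Nat.land
  (Nat.shiftRight b 22) 255))) N) 2) N) 2) N) 2) N) 2) N) 2) N) 2) N) 2) N) 2) N) 2) N) 2) N) 2) N) 2) N) 2) N) 2) N)
  2) N) 2) N) 2) N) 2) N) 2) N) 2) N) 2) N)

set_option exponentiation.threshold 16000 in
theorem hB_spec (N : ℕ) : hB N ≡ 3 ^ 31457280 [MOD N] :=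
  hfin _ (sq (sq (sq (sq (sq (sq (sq (sq (sq (sq (sq (sq (s0 (top 7680 N)))))))))))))) (by norm_num)

theorem gB_spec (N H : ℕ) : gB N H ≡ H ^ 3888 [MOD N] :=
  gfin _ (gst 3 (gst 3 (gst 3 (gst 3 (gst 3 (gst 2 (gst 2 (gst 2 (gst 2 (show H ≡ H ^ 1 [MOD N] by rw
  [pow_one])))))))))) (by norm_num)

theorem yB_spec (N b : ℕ) : yB N b ≡ (3 ^ (b >>> (21 + 1))) ^ 2 ^ 21 [MOD N] :=
  (sq (sq (sq (sq (sq (sq (sq (sq (sq (sq (sq (sq (sq (sq (sq (sq (sq (sq (sq (sq (sq (s0 (win 22 7 (sq (sq (sq (sq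
  (sq (sq (sq (s0 (win 30 7 (sq (sq (sq (sq (sq (sq (sq (s0 (win 38 7 (sq (sq (sq (sq (sq (sq (sq (s0 (top _
  N))))))))))))))))))))))))))))))))))))))))))))))))))

/-- batches of 36 primes `k 2^22 + 1` -/
noncomputable def chkB (c D g g' : ℕ) : Bool :=
  and (Nat.ble 1 g') (Nat.beq (run 4194304 62914560 240648192000 244611809280 489223618560 733835427840
    978447237120 1223059046400 1467670855680 8806025134080 224 6 hB gB yB c D g) g')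

def SB (g g' : ℕ) : Prop := Seg 249991004160 21 31457280 122305904640 240648192000 g g'

theorem SB.app {a b c : ℕ} (h1 : SB a b) (h2 : SB b c) : SB a c := Seg.app h1 h2

theorem sB (c D : ℕ) {g g' : ℕ} (h : chkB c D g g' = true) : SB g g' := fun e P => by
  rw [chkB, Bool.and_eq_true] at h
  exact run_spec (B := 224) (n := 6) P (by norm_num) hB_spec gB_spec yB_spec c D g g' rfl
    (Nat.eq_of_beq_eq_true h.2) (Nat.ne_of_gt (Nat.le_of_ble_eq_true h.1))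

theorem SB.lad {g g' : ℕ} (h : SB g g') (e x y : ℕ)
    (hn : (Nat.beq (g % 62914560 % 10) e && Nat.beq (g % 62914560 % 3) 2 && Nat.beq (g % 62914560 % 4194304) 1 &&
      Nat.ble (g' + 244611809281) x && Nat.ble y (g + 244611809281)) = true) : Lad e 249991004160 x y := by
  simp only [Bool.and_eq_true, Nat.beq_eq, Nat.ble_eq] at hn
  obtain ⟨⟨⟨⟨h1, h2⟩, h3⟩, h4⟩, h5⟩ := hn
  have h8 := (h e ⟨by norm_num, ⟨3888, by norm_num⟩, h1, h2, h3, by norm_num, by norm_num⟩).2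
  exact fun z h6 h7 => h8 z (h4.trans h6) (lt_of_lt_of_le h7 h5)

noncomputable def hC (N : ℕ) : ℕ :=
  (Nat.mod (Nat.pow (Nat.mod (Nat.pow (Nat.mod (Nat.pow (Nat.mod (Nat.pow (Nat.mod (Nat.pow (Nat.mod (Nat.pow (Nat.mod
  (Nat.pow (Nat.mod (Nat.pow (Nat.mod (Nat.pow (Nat.mod (Nat.pow (Nat.mod (Nat.pow (Nat.mod (Nat.pow (Nat.mod (Nat.pow
  (Nat.mod (Nat.pow (Nat.mod (Nat.pow (Nat.mod (Nat.pow (Nat.mod (Nat.pow (Nat.mod (Nat.pow (Nat.mod (Nat.pow (Nat.mod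
  (Nat.pow (Nat.mod (Nat.pow (Nat.mod (Nat.pow (Nat.mod (Nat.pow (Nat.mod (Nat.pow (Nat.mod (Nat.pow (Nat.mod (Nat.pow
  (Nat.mod (Nat.pow (Nat.mod (Nat.pow (Nat.mod (Nat.pow (Nat.mod (Nat.pow 3 15360) N) 2) N) 2) N) 2) N) 2) N) 2) N) 2)
  N) 2) N) 2) N) 2) N) 2) N) 2) N) 2) N) 2) N) 2) N) 2) N) 2) N) 2) N) 2) N) 2) N) 2) N) 2) N) 2) N) 2) N) 2) N) 2) N)
  2) N) 2) N) 2) N) 2) N)

noncomputable def gC (N H : ℕ) : ℕ :=
  (Nat.mod (Nat.pow (Nat.mod (Nat.pow (Nat.mod (Nat.pow (Nat.mod (Nat.pow (Nat.mod (Nat.pow (Nat.mod (Nat.pow (Nat.mod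
  (Nat.pow (Nat.mod (Nat.pow (Nat.mod (Nat.pow H 2) N) 2) N) 2) N) 2) N) 3) N) 3) N) 3) N) 7) N) 7) N)

noncomputable def yC (N b : ℕ) : ℕ :=
  (Nat.mod (Nat.pow (Nat.mod (Nat.pow (Nat.mod (Nat.pow (Nat.mod (Nat.pow (Nat.mod (Nat.pow (Nat.mod (Nat.pow (Nat.mod
  (Nat.pow (Nat.mod (Nat.pow (Nat.mod (Nat.pow (Nat.mod (Nat.pow (Nat.mod (Nat.pow (Nat.mod (Nat.pow (Nat.mod (Nat.pow
  (Nat.mod (Nat.pow (Nat.mod (Nat.pow (Nat.mod (Nat.pow (Nat.mod (Nat.pow (Nat.mod (Nat.pow (Nat.mod (Nat.pow (Nat.mod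
  (Nat.pow (Nat.mod (Nat.pow (Nat.mod (Nat.pow (Nat.mod (Nat.pow (Nat.mod (Nat.pow (Nat.mod (Nat.pow (Nat.mod (Nat.pow
  (Nat.mod (Nat.pow (Nat.mod (Nat.pow (Nat.mod (Nat.pow (Nat.mod (Nat.pow (Nat.mod (Nat.pow (Nat.mod (Nat.pow (Nat.mod
  (Nat.pow (Nat.mod (Nat.pow (Nat.mod (Nat.pow (Nat.mod (Nat.pow (Nat.mod (Nat.pow (Nat.mod (Nat.pow (Nat.mod (Nat.pow
  (Nat.mod (Nat.mul (Nat.pow (Nat.mod (Nat.pow (Nat.mod (Nat.pow (Nat.mod (Nat.pow (Nat.mod (Nat.pow (Nat.mod (Nat.pow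
  (Nat.mod (Nat.pow (Nat.mod (Nat.pow (Nat.mod (Nat.pow (Nat.mod (Nat.mul (Nat.pow (Nat.mod (Nat.pow (Nat.mod (Nat.pow
  (Nat.mod (Nat.pow (Nat.mod (Nat.pow (Nat.mod (Nat.pow (Nat.mod (Nat.pow (Nat.mod (Nat.pow (Nat.mod (Nat.pow (Nat.mod
  (Nat.mul (Nat.pow (Nat.mod (Nat.pow (Nat.mod (Nat.pow (Nat.mod (Nat.pow (Nat.mod (Nat.pow (Nat.mod (Nat.pow (Nat.mod
  (Nat.pow (Nat.mod (Nat.pow (Nat.mod (Nat.pow (Nat.mod (Nat.pow 3 (Nat.shiftRight b 67)) N) 2) N) 2) N) 2) N) 2) N)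
  2) N) 2) N) 2) N) 2) N) 2) (Nat.pow 3 (Nat.land (Nat.shiftRight b 58) 511))) N) 2) N) 2) N) 2) N) 2) N) 2) N) 2) N)
  2) N) 2) N) 2) (Nat.pow 3 (Nat.land (Nat.shiftRight b 49) 511))) N) 2) N) 2) N) 2) N) 2) N) 2) N) 2) N) 2) N) 2) N)
  2) (Nat.pow 3 (Nat.land (Nat.shiftRight b 40) 511))) N) 2) N) 2) N) 2) N) 2) N) 2) N) 2) N) 2) N) 2) N) 2) N) 2) N)
  2) N) 2) N) 2) N) 2) N) 2) N) 2) N) 2) N) 2) N) 2) N) 2) N) 2) N) 2) N) 2) N) 2) N) 2) N) 2) N) 2) N) 2) N) 2) N) 2)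
  N) 2) N) 2) N) 2) N) 2) N) 2) N) 2) N) 2) N) 2) N) 2) N)

set_option exponentiation.threshold 16000 in
theorem hC_spec (N : ℕ) : hC N ≡ 3 ^ 8246337208320 [MOD N] :=
  hfin _ (sq (sq (sq (sq (sq (sq (sq (sq (sq (sq (sq (sq (sq (sq (sq (sq (sq (sq (sq (sq (sq (sq (sq (sq (sq (sq (sq
  (sq (sq (s0 (top 15360 N))))))))))))))))))))))))))))))) (by norm_num)

theorem gC_spec (N H : ℕ) : gC N H ≡ H ^ 21168 [MOD N] :=
  gfin _ (gst 7 (gst 7 (gst 3 (gst 3 (gst 3 (gst 2 (gst 2 (gst 2 (gst 2 (show H ≡ H ^ 1 [MOD N] by rw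
  [pow_one])))))))))) (by norm_num)

theorem yC_spec (N b : ℕ) : yC N b ≡ (3 ^ (b >>> (39 + 1))) ^ 2 ^ 39 [MOD N] :=
  (sq (sq (sq (sq (sq (sq (sq (sq (sq (sq (sq (sq (sq (sq (sq (sq (sq (sq (sq (sq (sq (sq (sq (sq (sq (sq (sq (sq (sq
  (sq (sq (sq (sq (sq (sq (sq (sq (sq (sq (s0 (win 40 8 (sq (sq (sq (sq (sq (sq (sq (sq (s0 (win 49 8 (sq (sq (sq (sq
  (sq (sq (sq (sq (s0 (win 58 8 (sq (sq (sq (sq (sq (sq (sq (sq (s0 (top _
  N)))))))))))))))))))))))))))))))))))))))))))))))))))))))))))))))))))))))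

/-- batches of 36 primes `k 2^40 + 1` -/
noncomputable def chkC (c D g g' : ℕ) : Bool :=
  and (Nat.ble 1 g') (Nat.beq (run 1099511627776 16492674416640 348077893563187200 349116932051435520 698233864102871040 1047350796154306560
    1396467728205742080 1745584660257177600 2094701592308613120 12568209553851678720 224 6 hC gC yC c D g) g')

def SC (g g' : ℕ) : Prop := Seg 351293965074432000 39 8246337208320 174558466025717760 348077893563187200 g g'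

theorem SC.app {a b c : ℕ} (h1 : SC a b) (h2 : SC b c) : SC a c := Seg.app h1 h2

theorem sC (c D : ℕ) {g g' : ℕ} (h : chkC c D g g' = true) : SC g g' := fun e P => by
  rw [chkC, Bool.and_eq_true] at h
  exact run_spec (B := 224) (n := 6) P (by norm_num) hC_spec gC_spec yC_spec c D g g' rfl
    (Nat.eq_of_beq_eq_true h.2) (Nat.ne_of_gt (Nat.le_of_ble_eq_true h.1))

theorem SC.lad {g g' : ℕ} (h : SC g g') (e x y : ℕ)
    (hn : (Nat.beq (g % 16492674416640 % 10) e && Nat.beq (g % 16492674416640 % 3) 2 && Nat.beq (g % 16492674416640 % 1099511627776) 1 &&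
      Nat.ble (g' + 349116932051435521) x && Nat.ble y (g + 349116932051435521)) = true) : Lad e 351293965074432000 x y := by
  simp only [Bool.and_eq_true, Nat.beq_eq, Nat.ble_eq] at hn
  obtain ⟨⟨⟨⟨h1, h2⟩, h3⟩, h4⟩, h5⟩ := hn
  have h8 := (h e ⟨by norm_num, ⟨21168, by norm_num⟩, h1, h2, h3, by norm_num, by norm_num⟩).2
  exact fun z h6 h7 => h8 z (h4.trans h6) (lt_of_lt_of_le h7 h5)

end Cfsg.Agent.Depth.F.Gr
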